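import Mathlib
import Cfsg.Agent.H85.SqC

/-!
The quaternionic model of the symplectic group (see notes/PN.md).
-/

set_option autoImplicit false
set_option linter.unusedSectionVars false
set_option linter.unusedVariables false
set_option linter.unusedSimpArgs false
set_option linter.unnecessarySeqFocus false

namespace Cfsg.Agent.PN

open Quaternion Matrix Subgroup

variable {F : Type*} [Field F] {ι : Type*} [Fintype ι] [DecidableEq ι]

/-- Quaternions of norm one (a copy of `SL₂(F)`). -/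
abbrev U1 (F : Type*) [Field F] := unitary ℍ[F]

/-- The unitary group over the quaternions (a copy of `Sp(F)`). -/
abbrev UG (F : Type*) [Field F] (ι : Type*) [Fintype ι] [DecidableEq ι] :=
  unitary (Matrix ι ι ℍ[F])

instance finQ [Finite F] : Finite ℍ[F] := Finite.of_equiv _ (Quaternion.equivProd F).symm

instance finU1 [Finite F] : Finite (U1 F) := Subtype.finite

instance finUG [Finite F] : Finite (UG F ι) := Subtype.finite

def qi : ℍ[F] := ⟨0, 1, 0, 0⟩
def qj : ℍ[F] := ⟨0, 0, 1, 0⟩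
def qk : ℍ[F] := ⟨0, 0, 0, 1⟩
def qw : ℍ[F] := ⟨-2⁻¹, 2⁻¹, 2⁻¹, 2⁻¹⟩

@[simp] theorem qi_re : (qi : ℍ[F]).re = 0 := rfl
@[simp] theorem qi_imI : (qi : ℍ[F]).imI = 1 := rfl
@[simp] theorem qi_imJ : (qi : ℍ[F]).imJ = 0 := rfl
@[simp] theorem qi_imK : (qi : ℍ[F]).imK = 0 := rfl
@[simp] theorem qj_re : (qj : ℍ[F]).re = 0 := rfl
@[simp] theorem qj_imI : (qj : ℍ[F]).imI = 0 := rfl
@[simp] theorem qj_imJ : (qj : ℍ[F]).imJ = 1 := rfl
@[simp] theorem qj_imK : (qj : ℍ[F]).imK = 0 := rfl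
@[simp] theorem qk_re : (qk : ℍ[F]).re = 0 := rfl
@[simp] theorem qk_imI : (qk : ℍ[F]).imI = 0 := rfl
@[simp] theorem qk_imJ : (qk : ℍ[F]).imJ = 0 := rfl
@[simp] theorem qk_imK : (qk : ℍ[F]).imK = 1 := rfl
@[simp] theorem qw_re : (qw : ℍ[F]).re = -2⁻¹ := rfl
@[simp] theorem qw_imI : (qw : ℍ[F]).imI = 2⁻¹ := rfl
@[simp] theorem qw_imJ : (qw : ℍ[F]).imJ = 2⁻¹ := rfl
@[simp] theorem qw_imK : (qw : ℍ[F]).imK = 2⁻¹ := rfl

@[simp] theorem qi_qi : (qi : ℍ[F]) * qi = -1 := by ext <;> simp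
@[simp] theorem qj_qj : (qj : ℍ[F]) * qj = -1 := by ext <;> simp
@[simp] theorem qk_qk : (qk : ℍ[F]) * qk = -1 := by ext <;> simp
@[simp] theorem qi_qj : (qi : ℍ[F]) * qj = qk := by ext <;> simp
@[simp] theorem qj_qi : (qj : ℍ[F]) * qi = -qk := by ext <;> simp
@[simp] theorem qj_qk : (qj : ℍ[F]) * qk = qi := by ext <;> simp
@[simp] theorem qk_qj : (qk : ℍ[F]) * qj = -qi := by ext <;> simp
@[simp] theorem qk_qi : (qk : ℍ[F]) * qi = qj := by ext <;> simp
@[simp] theorem qi_qk : (qi : ℍ[F]) * qk = -qj := by ext <;> simp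
@[simp] theorem star_qi : star (qi : ℍ[F]) = -qi := by ext <;> simp
@[simp] theorem star_qj : star (qj : ℍ[F]) = -qj := by ext <;> simp
@[simp] theorem star_qk : star (qk : ℍ[F]) = -qk := by ext <;> simp

theorem mem_U1 {x : ℍ[F]} : x ∈ unitary ℍ[F] ↔ normSq x = 1 := by
  rw [Unitary.mem_iff, Quaternion.star_mul_self, Quaternion.self_mul_star, and_self,
    ← Quaternion.coe_one, Quaternion.coe_inj]

theorem normSq_U1 (u : U1 F) : normSq (u : ℍ[F]) = 1 := mem_U1.1 u.2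

theorem coe_inv_U1 (u : U1 F) : ((u⁻¹ : U1 F) : ℍ[F]) = star (u : ℍ[F]) := rfl

theorem coe_mul_U1 (u v : U1 F) : ((u * v : U1 F) : ℍ[F]) = (u : ℍ[F]) * v := rfl

theorem coe_neg_U1 (u : U1 F) : ((-u : U1 F) : ℍ[F]) = -(u : ℍ[F]) := rfl

theorem coe_one_U1 : ((1 : U1 F) : ℍ[F]) = 1 := rfl

theorem mul_star_U1 (u : U1 F) : (u : ℍ[F]) * star (u : ℍ[F]) = 1 := u.2.2

theorem star_mul_U1 (u : U1 F) : star (u : ℍ[F]) * (u : ℍ[F]) = 1 := u.2.1

def ui : U1 F := ⟨qi, by rw [Unitary.mem_iff]; simp⟩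
def uj : U1 F := ⟨qj, by rw [Unitary.mem_iff]; simp⟩
def uk : U1 F := ⟨qk, by rw [Unitary.mem_iff]; simp⟩

@[simp] theorem coe_ui : ((ui : U1 F) : ℍ[F]) = qi := rfl
@[simp] theorem coe_uj : ((uj : U1 F) : ℍ[F]) = qj := rfl
@[simp] theorem coe_uk : ((uk : U1 F) : ℍ[F]) = qk := rfl

/-- The quaternion group `{±1, ±i, ±j, ±k}`. -/
def Q (F : Type*) [Field F] : Subgroup (U1 F) where
  carrier := {x | (x : ℍ[F]) = 1 ∨ (x : ℍ[F]) = -1 ∨ (x : ℍ[F]) = qi ∨ (x : ℍ[F]) = -qi ∨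
    (x : ℍ[F]) = qj ∨ (x : ℍ[F]) = -qj ∨ (x : ℍ[F]) = qk ∨ (x : ℍ[F]) = -qk}
  one_mem' := Or.inl rfl
  mul_mem' := by
    intro a b ha hb
    simp only [Set.mem_ofPred_eq, coe_mul_U1] at ha hb ⊢
    rcases ha with h | h | h | h | h | h | h | h <;>
      rcases hb with h' | h' | h' | h' | h' | h' | h' | h' <;> rw [h, h'] <;> simp
  inv_mem' := by
    intro a ha
    simp only [Set.mem_ofPred_eq, coe_inv_U1] at ha ⊢
    rcases ha with h | h | h | h | h | h | h | h <;> rw [h] <;> simp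

theorem mem_Q {x : U1 F} : x ∈ Q F ↔ (x : ℍ[F]) = 1 ∨ (x : ℍ[F]) = -1 ∨ (x : ℍ[F]) = qi ∨
    (x : ℍ[F]) = -qi ∨ (x : ℍ[F]) = qj ∨ (x : ℍ[F]) = -qj ∨ (x : ℍ[F]) = qk ∨
    (x : ℍ[F]) = -qk := Iff.rfl

theorem ui_mem : (ui : U1 F) ∈ Q F := by simp [mem_Q]
theorem uj_mem : (uj : U1 F) ∈ Q F := by simp [mem_Q]
theorem uk_mem : (uk : U1 F) ∈ Q F := by simp [mem_Q]
theorem neg_one_mem : (-1 : U1 F) ∈ Q F := Or.inr (Or.inl rfl)

theorem Q_sq {x : U1 F} (hx : x ∈ Q F) : x = 1 ∨ x = -1 ∨ x * x = -1 := by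
  rcases hx with h | h | h | h | h | h | h | h
  · exact Or.inl (Subtype.ext h)
  · exact Or.inr (Or.inl (Subtype.ext h))
  all_goals exact Or.inr (Or.inr (Subtype.ext (by rw [coe_mul_U1, h]; simp [coe_neg_U1])))

theorem Q_pow_four {x : U1 F} (hx : x ∈ Q F) : x ^ 4 = 1 := by
  have : x ^ 4 = x * x * (x * x) := by simp only [pow_succ, pow_zero, one_mul, mul_assoc]
  rcases Q_sq hx with h | h | h <;> rw [this, h] <;> simp

theorem Q_pg : IsPGroup 2 (Q F) := fun x => ⟨2, Subtype.ext (Q_pow_four x.2)⟩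

/-- The centre `{±1}`. -/
def Z (F : Type*) [Field F] : Subgroup (U1 F) where
  carrier := {x | x = 1 ∨ x = -1}
  one_mem' := Or.inl rfl
  mul_mem' := by rintro a b (rfl | rfl) (rfl | rfl) <;> simp
  inv_mem' := by
    rintro a (rfl | rfl)
    · exact Or.inl inv_one
    · exact Or.inr (inv_eq_of_mul_eq_one_right (by simp))

theorem mem_Z {x : U1 F} : x ∈ Z F ↔ x = 1 ∨ x = -1 := Iff.rfl

theorem Z_le_Q : Z F ≤ Q F := by
  rintro _ (rfl | rfl)
  exacts [one_mem _, neg_one_mem]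

theorem avg (c : ℍ[F]) : c + qi * c * star qi + qj * c * star qj + qk * c * star qk =
    ((4 * c.re : F) : ℍ[F]) := by
  ext <;> simp <;> ring

theorem isUnit_iff_normSq {x : ℍ[F]} : IsUnit x ↔ normSq x ≠ 0 := by
  constructor
  · intro h
    exact (h.map normSq).ne_zero
  · intro h
    refine ⟨⟨x, (normSq x)⁻¹ • star x, ?_, ?_⟩, rfl⟩
    · rw [mul_smul_comm, Quaternion.self_mul_star, Quaternion.smul_coe, inv_mul_cancel₀ h,
        Quaternion.coe_one]
    · rw [smul_mul_assoc, Quaternion.star_mul_self, Quaternion.smul_coe, inv_mul_cancel₀ h,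
        Quaternion.coe_one]

theorem two_eq : (2 : ℍ[F]) = ((2 : F) : ℍ[F]) := by
  rw [← one_add_one_eq_two, ← one_add_one_eq_two, Quaternion.coe_add, Quaternion.coe_one]

@[simp] theorem two_re : (2 : ℍ[F]).re = 2 := by rw [two_eq]; rfl
@[simp] theorem two_imI : (2 : ℍ[F]).imI = 0 := by rw [two_eq]; rfl
@[simp] theorem two_imJ : (2 : ℍ[F]).imJ = 0 := by rw [two_eq]; rfl
@[simp] theorem two_imK : (2 : ℍ[F]).imK = 0 := by rw [two_eq]; rfl

section Two

variable [NeZero (2 : F)]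

theorem two_ne : (2 : F) ≠ 0 := NeZero.ne 2

theorem two_mul_eq_zero {x : ℍ[F]} (h : 2 * x = 0) : x = 0 := by
  have h2 := two_ne (F := F)
  have h0 : (2 : F) • x = 0 := by rw [two_smul, ← two_mul, h]
  exact (smul_eq_zero.1 h0).resolve_left h2

theorem eq_zero_of_eq_neg {x : ℍ[F]} (h : x = -x) : x = 0 :=
  two_mul_eq_zero (by rw [two_mul]; exact eq_neg_iff_add_eq_zero.1 h)

theorem isUnit_two : IsUnit (2 : ℍ[F]) := by
  rw [isUnit_iff_normSq, two_eq, normSq_coe]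
  exact pow_ne_zero _ two_ne

theorem neg_one_ne : (-1 : U1 F) ≠ 1 := fun h =>
  one_ne_zero (eq_zero_of_eq_neg (F := F) (congrArg Subtype.val h).symm)

/-- The quaternion algebra is prime. -/
theorem prime {a b : ℍ[F]} (h1 : a * b = 0) (hi : a * qi * b = 0) (hj : a * qj * b = 0)
    (hk : a * qk * b = 0) : a = 0 ∨ b = 0 := by
  have h2 := two_ne (F := F)
  have all : ∀ x : ℍ[F], a * x * b = 0 := fun x => by
    have : x = x.re • (1 : ℍ[F]) + x.imI • qi + x.imJ • qj + x.imK • qk := by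
      ext <;> simp
    rw [this]
    simp [mul_add, add_mul, h1, hi, hj, hk]
  refine or_iff_not_imp_right.2 fun hb => ?_
  by_contra ha
  obtain ⟨x, hx⟩ : ∃ x : ℍ[F], (x * b).re ≠ 0 := by
    by_contra hc
    push Not at hc
    have e1 := hc 1
    have e2 := hc qi
    have e3 := hc qj
    have e4 := hc qk
    simp at e1 e2 e3 e4
    exact hb (by ext <;> simp [*])
  have h3 : a * (((4 * (x * b).re : F)) : ℍ[F]) = 0 := by
    rw [← avg]
    have e : ∀ q : ℍ[F], a * (q * (x * b) * star q) = a * (q * x) * b * star q := fun q => by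
      simp only [mul_assoc]
    rw [mul_add, mul_add, mul_add, e, e, e, all, all, all, ← mul_assoc, all]
    simp
  rw [mul_coe_eq_smul, smul_eq_zero] at h3
  have h4 : (4 : F) ≠ 0 := by
    rw [show (4 : F) = 2 * 2 by norm_num]; exact mul_ne_zero h2 h2
  exact h3.elim (mul_ne_zero h4 hx) ha

theorem prime' {a b : ℍ[F]} (h : ∀ q ∈ Q F, a * (q : ℍ[F]) * b = 0) : a = 0 ∨ b = 0 :=
  prime (by simpa using h 1 (one_mem _)) (h ui ui_mem) (h uj uj_mem) (h uk uk_mem)

theorem real_of_comm {x : ℍ[F]} (hi : qi * x = x * qi) (hj : qj * x = x * qj) :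
    x = (x.re : ℍ[F]) := by
  have h2 := two_ne (F := F)
  have e1 := congrArg QuaternionAlgebra.imK hi
  have e2 := congrArg QuaternionAlgebra.imJ hi
  have e3 := congrArg QuaternionAlgebra.imK hj
  simp at e1 e2 e3
  ext
  · simp
  · exact mul_left_cancel₀ h2 (by rw [imI_coe]; linear_combination -e3)
  · exact mul_left_cancel₀ h2 (by rw [imJ_coe]; linear_combination e1)
  · exact mul_left_cancel₀ h2 (by rw [imK_coe]; linear_combination -e2)

theorem mem_Z_of_real {u : U1 F} {r : F} (h : (u : ℍ[F]) = (r : ℍ[F])) : u ∈ Z F := by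
  have h1 := normSq_U1 u
  rw [h, normSq_coe, sq_eq_one_iff] at h1
  rcases h1 with rfl | rfl
  · exact Or.inl (Subtype.ext h)
  · exact Or.inr (Subtype.ext (by rw [h]; simp [coe_neg_U1]))

theorem mem_Z_of_comm {u : U1 F} (hi : ui * u = u * ui) (hj : uj * u = u * uj) : u ∈ Z F :=
  mem_Z_of_real (real_of_comm (congrArg Subtype.val hi) (congrArg Subtype.val hj))

theorem mem_Z_of_sq {u : U1 F} (h : u * u = 1) : u ∈ Z F := by
  have h2 := two_ne (F := F)
  have h1 : star (u : ℍ[F]) = u := congrArg Subtype.val (inv_eq_of_mul_eq_one_right h)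
  have e1 := congrArg QuaternionAlgebra.imI h1
  have e2 := congrArg QuaternionAlgebra.imJ h1
  have e3 := congrArg QuaternionAlgebra.imK h1
  simp at e1 e2 e3
  refine mem_Z_of_real (r := (u : ℍ[F]).re) ?_
  ext
  · simp
  · exact mul_left_cancel₀ h2 (by rw [imI_coe]; linear_combination -e1)
  · exact mul_left_cancel₀ h2 (by rw [imJ_coe]; linear_combination -e2)
  · exact mul_left_cancel₀ h2 (by rw [imK_coe]; linear_combination -e3)

theorem eq_one_of_odd {u : U1 F} (hu : u ∈ Z F) {n : ℕ} (hn : Odd n) (h : u ^ n = 1) : u = 1 := by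
  rcases hu with rfl | rfl
  · rfl
  · rw [hn.neg_one_pow] at h; exact h

/-- The element `(-1 + i + j + k) / 2` of order three. -/
def uw : U1 F := ⟨qw, mem_U1.2 (by
  have h2 := two_ne (F := F)
  rw [normSq_def']; simp only [qw_re, qw_imI, qw_imJ, qw_imK]; field_simp; norm_num)⟩

@[simp] theorem coe_uw : ((uw : U1 F) : ℍ[F]) = qw := rfl

theorem qw_qi : (qw : ℍ[F]) * qi = qk * qw := by ext <;> simp
theorem qw_qj : (qw : ℍ[F]) * qj = qi * qw := by ext <;> simp
theorem qw_qk : (qw : ℍ[F]) * qk = qj * qw := by ext <;> simp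

theorem uw_ui : (uw : U1 F) * ui * uw⁻¹ = uk := mul_inv_eq_iff_eq_mul.2 (Subtype.ext qw_qi)
theorem uw_uj : (uw : U1 F) * uj * uw⁻¹ = ui := mul_inv_eq_iff_eq_mul.2 (Subtype.ext qw_qj)
theorem uw_uk : (uw : U1 F) * uk * uw⁻¹ = uj := mul_inv_eq_iff_eq_mul.2 (Subtype.ext qw_qk)

theorem uw_cube : (uw : U1 F) ^ 3 = 1 := by
  have h2 := two_ne (F := F)
  apply Subtype.ext
  rw [pow_three, coe_mul_U1, coe_mul_U1, coe_uw, coe_one_U1]
  ext <;> simp <;> field_simp <;> ring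

theorem uw_ne_one : (uw : U1 F) ≠ 1 := fun h => by
  have h2 := two_ne (F := F)
  have := congrArg (fun x : U1 F => (x : ℍ[F]).imI) h
  simp [h2] at this

theorem uw_not_mem {P : Subgroup (U1 F)} (hP : IsPGroup 2 P) : (uw : U1 F) ∉ P := fun h => by
  obtain ⟨k, hk⟩ := hP ⟨_, h⟩
  have h1 : (uw : U1 F) ^ 2 ^ k = 1 := congrArg Subtype.val hk
  have h3 : (2 ^ k).Coprime 3 := Nat.Coprime.pow_left _ (by norm_num)
  exact uw_ne_one (by simpa [h3.gcd_eq_one] using pow_gcd_eq_one.2 ⟨h1, uw_cube⟩)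

theorem uw_norm : (uw : U1 F) ∈ normalizer (Q F : Set (U1 F)) := by
  have key : ∀ x ∈ Q F, (uw : U1 F) * x * uw⁻¹ ∈ Q F := by
    intro x hx
    have e : ∀ a : U1 F, uw * -a * uw⁻¹ = -(uw * a * uw⁻¹) := fun a => by simp
    rcases hx with h | h | h | h | h | h | h | h
    · rw [show x = 1 from Subtype.ext h]; simp
    · rw [show x = -1 from Subtype.ext h]; simpa using neg_one_mem
    · rw [show x = ui from Subtype.ext h, uw_ui]; exact uk_mem
    · rw [show x = -ui from Subtype.ext h, e, uw_ui]; simp [mem_Q, coe_neg_U1]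
    · rw [show x = uj from Subtype.ext h, uw_uj]; exact ui_mem
    · rw [show x = -uj from Subtype.ext h, e, uw_uj]; simp [mem_Q, coe_neg_U1]
    · rw [show x = uk from Subtype.ext h, uw_uk]; exact uj_mem
    · rw [show x = -uk from Subtype.ext h, e, uw_uk]; simp [mem_Q, coe_neg_U1]
  rw [mem_normalizer_iff]
  intro x
  refine ⟨key x, fun h => ?_⟩
  have := key _ (key _ h)
  rwa [show (uw : U1 F) * (uw * (uw * x * uw⁻¹) * uw⁻¹) * uw⁻¹ = uw ^ 3 * x * (uw ^ 3)⁻¹ by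
    rw [pow_three]; group, uw_cube, one_mul, inv_one, mul_one] at this

end Two

/-! ### Monomial matrices -/

theorem coe_mul_UG (g h : UG F ι) :
    ((g * h : UG F ι) : Matrix ι ι ℍ[F]) = (g : Matrix ι ι ℍ[F]) * h := rfl

theorem coe_one_UG : ((1 : UG F ι) : Matrix ι ι ℍ[F]) = 1 := rfl

theorem coe_inv_UG (g : UG F ι) : ((g⁻¹ : UG F ι) : Matrix ι ι ℍ[F]) = star (g : Matrix ι ι ℍ[F]) :=
  rfl

theorem inv_apply (g : UG F ι) (a b : ι) : (g⁻¹).1 a b = star (g.1 b a) := rfl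

theorem mul_apply' (g h : UG F ι) (a b : ι) : (g * h).1 a b = ∑ c, g.1 a c * h.1 c b :=
  Matrix.mul_apply

theorem ext_UG {g h : UG F ι} (e : ∀ a b, g.1 a b = h.1 a b) : g = h :=
  Subtype.ext (Matrix.ext e)

/-- Permutation matrix. -/
def pm (F : Type*) [Field F] (π : Equiv.Perm ι) : Matrix ι ι ℍ[F] :=
  Matrix.of fun a b => if a = π b then 1 else 0

theorem pm_mul (π ρ : Equiv.Perm ι) : pm F (π * ρ) = pm F π * pm F ρ := by
  ext1 a b
  simp [pm, Matrix.mul_apply]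
  rfl

theorem pm_one : pm F (1 : Equiv.Perm ι) = 1 := by
  ext1 a b
  simp [pm, Matrix.one_apply]
  rfl

theorem star_pm (π : Equiv.Perm ι) : star (pm F π) = pm F π⁻¹ := by
  ext1 a b
  simp only [pm, Matrix.star_apply, Matrix.of_apply, Equiv.Perm.eq_inv_iff_eq, eq_comm (a := b)]
  split_ifs <;> simp

/-- Diagonal and permutation matrices. -/
def wd (F : Type*) [Field F] (ι : Type*) [Fintype ι] [DecidableEq ι] :
    H85.WD ι (U1 F) (UG F ι) where
  β := MonoidHom.mk' (fun f => ⟨diagonal fun a => (f a : ℍ[F]), by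
      rw [Unitary.mem_iff, Matrix.star_eq_conjTranspose, diagonal_conjTranspose,
        diagonal_mul_diagonal, diagonal_mul_diagonal]
      simp [mul_star_U1, star_mul_U1]⟩)
    fun f g => Subtype.ext (diagonal_mul_diagonal _ _).symm
  σ := MonoidHom.mk' (fun π => ⟨pm F π, by
      rw [Unitary.mem_iff, star_pm, ← pm_mul, ← pm_mul, inv_mul_cancel, mul_inv_cancel, pm_one]
      exact ⟨rfl, rfl⟩⟩)
    fun π ρ => Subtype.ext (pm_mul π ρ)
  conj π f := ext_UG fun a b => by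
    simp only [coe_mul_UG, MonoidHom.mk'_apply, Matrix.mul_diagonal, Matrix.diagonal_mul, pm,
      Matrix.of_apply]
    split_ifs with h
    · subst h; simp
    · simp
  inj f π h := by
    have h1 : ∀ a b, (diagonal fun a => (f a : ℍ[F])) a b = pm F π a b := fun a b =>
      congrFun (congrFun (congrArg Subtype.val h) a) b
    have h2 : π = 1 := Equiv.ext fun b => by
      by_contra hb
      have := h1 (π b) b
      rw [diagonal_apply_ne _ (show π b ≠ b from hb)] at this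
      simp [pm] at this
    subst h2
    refine ⟨funext fun a => Subtype.ext ?_, rfl⟩
    simpa [pm] using h1 a a

/-- Diagonal matrices. -/
abbrev β : (ι → U1 F) →* UG F ι := (wd F ι).β

/-- Permutation matrices. -/
abbrev σ : Equiv.Perm ι →* UG F ι := (wd F ι).σ

/-- One diagonal entry. -/
abbrev ins (a : ι) : U1 F →* UG F ι := (wd F ι).ins a

/-- The involution with the single entry `-1`. -/
def t (F : Type*) [Field F] (a : ι) : UG F ι := ins a (-1)

/-- The diagonal matrices with entries `±1`. -/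
def A (F : Type*) [Field F] (ι : Type*) [Fintype ι] [DecidableEq ι] : Subgroup (UG F ι) :=
  (wd F ι).B (Z F)

/-- The scalar matrix `w`. -/
def y (F : Type*) [Field F] [NeZero (2 : F)] (ι : Type*) [Fintype ι] [DecidableEq ι] : UG F ι :=
  β fun _ => uw

theorem coe_β (f : ι → U1 F) : (β f : UG F ι).1 = diagonal fun a => (f a : ℍ[F]) := rfl

theorem coe_σ (π : Equiv.Perm ι) : (σ π : UG F ι).1 = pm F π := rfl

theorem β_apply (f : ι → U1 F) (a b : ι) :
    (β f : UG F ι).1 a b = if a = b then (f a : ℍ[F]) else 0 := diagonal_apply _ _ _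

theorem σ_apply (π : Equiv.Perm ι) (a b : ι) :
    (σ π : UG F ι).1 a b = if a = π b then 1 else 0 := rfl

theorem β_mul_apply (f : ι → U1 F) (g : UG F ι) (a b : ι) :
    (β f * g).1 a b = f a * g.1 a b := Matrix.diagonal_mul _ _ _ _

theorem mul_β_apply (f : ι → U1 F) (g : UG F ι) (a b : ι) :
    (g * β f).1 a b = g.1 a b * f b := Matrix.mul_diagonal _ _ _ _

theorem β_conj_apply (f : ι → U1 F) (g : UG F ι) (a b : ι) :
    (β f * g * (β f)⁻¹).1 a b = f a * g.1 a b * star (f b : ℍ[F]) := by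
  rw [← map_inv, mul_β_apply, β_mul_apply]; rfl

theorem mono_apply (f : ι → U1 F) (π : Equiv.Perm ι) (a b : ι) :
    (β f * σ π : UG F ι).1 a b = if a = π b then (f a : ℍ[F]) else 0 := by
  rw [β_mul_apply, σ_apply]; simp

theorem ins_eq (a : ι) (u : U1 F) : (ins a u : UG F ι) = β (Pi.mulSingle a u) := rfl

theorem coe_ins (c : ι) (u : U1 F) :
    (ins c u : UG F ι).1 = 1 + Matrix.single c c ((u : ℍ[F]) - 1) := by
  ext1 a b
  rw [ins_eq, β_apply, Matrix.add_apply, Matrix.one_apply, Matrix.single_apply]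
  by_cases h : a = b
  · subst h
    by_cases h' : c = a
    · subst h'; simp
    · simp [h', Pi.mulSingle_eq_of_ne (Ne.symm h')]
  · have : ¬ (c = a ∧ c = b) := fun e => h (e.1.symm.trans e.2)
    simp [h, this]

theorem conj_ins_apply (g : UG F ι) (c : ι) (u : U1 F) (a b : ι) :
    (g * ins c u * g⁻¹).1 a b =
      (if a = b then 1 else 0) + g.1 a c * ((u : ℍ[F]) - 1) * star (g.1 b c) := by
  rw [coe_mul_UG, coe_mul_UG, coe_ins, coe_inv_UG, mul_add, mul_one, add_mul, g.2.2,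
    Matrix.add_apply, Matrix.one_apply, Matrix.mul_apply, Finset.sum_eq_single c,
    Matrix.mul_single_apply_same, Matrix.star_apply]
  · intro d _ hd
    rw [Matrix.mul_single_apply_of_ne _ _ _ _ _ hd, zero_mul]
  · simp

theorem conj_t_apply (g : UG F ι) (c a b : ι) :
    (g * t F c * g⁻¹).1 a b = (if a = b then 1 else 0) - 2 * (g.1 a c * star (g.1 b c)) := by
  rw [t, conj_ins_apply, coe_neg_U1, coe_one_U1]
  noncomm_ring

theorem t_apply (c a b : ι) :
    (t F c).1 a b = if a = b then (if a = c then -1 else 1) else 0 := by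
  rw [t, ins_eq, β_apply]
  by_cases h : a = c
  · subst h; simp [coe_neg_U1]
  · simp [h, Pi.mulSingle_eq_of_ne h]

theorem t_sq (a : ι) : t F a * t F a = 1 := by rw [t, ← map_mul]; simp

theorem t_inv (a : ι) : (t F a)⁻¹ = t F a := inv_eq_of_mul_eq_one_right (t_sq a)

theorem β_comm_t (f : ι → U1 F) (c : ι) : β f * t F c = t F c * β f := by
  rw [t, ins_eq, ← map_mul, ← map_mul]
  congr 1
  funext a
  by_cases h : a = c
  · subst h; simp
  · simp [Pi.mulSingle_eq_of_ne h]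

theorem β_conj_ins (f : ι → U1 F) (c : ι) (u : U1 F) :
    β f * ins c u * (β f)⁻¹ = ins c (f c * u * (f c)⁻¹) := by
  rw [ins_eq, ins_eq, ← map_inv, ← map_mul, ← map_mul]
  congr 1
  funext a
  by_cases h : a = c
  · subst h; simp
  · simp [Pi.mulSingle_eq_of_ne h]

theorem σ_conj_ins (π : Equiv.Perm ι) (c : ι) (u : U1 F) :
    σ π * ins c u * (σ π)⁻¹ = ins (π c) u := (wd F ι).conj_single π c u

theorem mono_conj_ins (f : ι → U1 F) (π : Equiv.Perm ι) (c : ι) (u : U1 F) :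
    β f * σ π * ins c u * (β f * σ π)⁻¹ = ins (π c) (f (π c) * u * (f (π c))⁻¹) := by
  rw [← β_conj_ins, ← σ_conj_ins]; group

theorem mono_conj_t (f : ι → U1 F) (π : Equiv.Perm ι) (c : ι) :
    β f * σ π * t F c * (β f * σ π)⁻¹ = t F (π c) := by
  rw [t, mono_conj_ins]; simp [t]

theorem mono_conj_β (f : ι → U1 F) (π : Equiv.Perm ι) (h : ι → U1 F) :
    β f * σ π * β h * (β f * σ π)⁻¹ = β fun a => f a * h (π⁻¹ a) * (f a)⁻¹ := by
  rw [show β f * σ π * β h * (β f * σ π)⁻¹ = β f * (σ π * β h * (σ π)⁻¹) * (β f)⁻¹ by group,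
    (wd F ι).conj', ← map_inv, ← map_mul, ← map_mul]
  rfl

theorem mono_mul (f h : ι → U1 F) (π ρ : Equiv.Perm ι) :
    β f * σ π * (β h * σ ρ) = (β (fun a => f a * h (π⁻¹ a)) * σ (π * ρ) : UG F ι) := by
  rw [mul_assoc, ← mul_assoc (σ π), (wd F ι).conj, map_mul, ← mul_assoc, ← mul_assoc, ← map_mul,
    mul_assoc]
  rfl

theorem mono_inj {f h : ι → U1 F} {π ρ : Equiv.Perm ι}
    (e : β f * σ π = (β h * σ ρ : UG F ι)) : f = h ∧ π = ρ := by
  have := (wd F ι).inj (h⁻¹ * f) (ρ * π⁻¹) (by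
    rw [map_mul, map_mul, map_inv, map_inv, inv_mul_eq_iff_eq_mul, ← mul_assoc,
      eq_mul_inv_iff_mul_eq]
    exact e)
  exact ⟨(inv_mul_eq_one.1 this.1).symm, (mul_inv_eq_one.1 this.2).symm⟩

theorem mem_A {x : UG F ι} : x ∈ A F ι ↔ ∃ f : ι → U1 F, (∀ a, f a ∈ Z F) ∧ β f = x :=
  ⟨fun ⟨f, hf, e⟩ => ⟨f, fun a => hf a (Set.mem_univ _), e⟩,
    fun ⟨f, hf, e⟩ => ⟨f, fun a _ => hf a, e⟩⟩

theorem t_mem_A (a : ι) : t F a ∈ A F ι :=
  mem_A.2 ⟨_, fun b => by
    by_cases h : b = a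
    · subst h; simp [mem_Z]
    · simp [Pi.mulSingle_eq_of_ne h, mem_Z], rfl⟩

theorem A_le {K : Subgroup (UG F ι)} (h : ∀ a, t F a ∈ K) : A F ι ≤ K :=
  (wd F ι).B_le fun a d hd => by
    rcases hd with rfl | rfl
    · rw [Pi.mulSingle_one, map_one]; exact one_mem _
    · exact h a

theorem A_sq {x : UG F ι} (hx : x ∈ A F ι) : x * x = 1 := by
  obtain ⟨f, hf, rfl⟩ := mem_A.1 hx
  rw [← map_mul, show f * f = 1 from funext fun a => by rcases hf a with h | h <;> simp [h], map_one]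

theorem A_le_W {P : Subgroup (U1 F)} (hP : Q F ≤ P) (T : Subgroup (Equiv.Perm ι)) :
    A F ι ≤ (wd F ι).W P T := A_le fun a => (wd F ι).single_mem_W T a (hP neg_one_mem)

theorem mono_norm_A (f : ι → U1 F) (π : Equiv.Perm ι) :
    (β f * σ π : UG F ι) ∈ normalizer (A F ι : Set (UG F ι)) := by
  refine mul_mem ?_ ((wd F ι).σ_mem_normalizer _ π)
  have : ∀ x ∈ A F ι, x * β f = β f * x := fun x hx =>
    A_le (K := centralizer {β f}) (fun a => mem_centralizer_singleton_iff.2 (β_comm_t f a).symm) hx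
      |> mem_centralizer_singleton_iff.1
  exact centralizer_le_normalizer _ this

theorem diag_of_comm [NeZero (2 : F)] {g : UG F ι} {c : ι} (h : g * t F c = t F c * g) {a : ι}
    (ha : a ≠ c) : g.1 a c = 0 ∧ g.1 c a = 0 := by
  have e : ∀ a b, (g * t F c).1 a b = (t F c * g).1 a b := fun a b => by rw [h]
  have e1 := e a c
  have e2 := e c a
  rw [t, ins_eq, mul_β_apply, β_mul_apply] at e1 e2
  simp [Pi.mulSingle_eq_of_ne ha, coe_neg_U1] at e1 e2
  exact ⟨eq_zero_of_eq_neg e1.symm, eq_zero_of_eq_neg e2⟩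

theorem comm_of_diag {g : UG F ι} {c : ι} (h : ∀ a, a ≠ c → g.1 a c = 0 ∧ g.1 c a = 0) :
    g * t F c = t F c * g := ext_UG fun a b => by
  rw [t, ins_eq, mul_β_apply, β_mul_apply]
  by_cases ha : a = c <;> by_cases hb : b = c
  · subst ha hb; simp [coe_neg_U1]
  · subst ha; simp [(h b hb).2]
  · subst hb; simp [(h a ha).1]
  · simp [Pi.mulSingle_eq_of_ne ha, Pi.mulSingle_eq_of_ne hb]

theorem t_inj [NeZero (2 : F)] {a b : ι} (h : t F a = t F b) : a = b := by
  by_contra hab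
  have : Pi.mulSingle (M := fun _ => U1 F) a (-1) a = Pi.mulSingle (M := fun _ => U1 F) b (-1) a :=
    congrFun ((wd F ι).β_inj h) a
  rw [Pi.mulSingle_eq_same, Pi.mulSingle_eq_of_ne hab] at this
  exact neg_one_ne this

theorem y_cube [NeZero (2 : F)] : y F ι ^ 3 = 1 := by
  rw [y, ← map_pow, show (fun _ : ι => (uw : U1 F)) ^ 3 = 1 from funext fun _ => uw_cube, map_one]

theorem σ_comm_y [NeZero (2 : F)] (π : Equiv.Perm ι) : σ π * y F ι = y F ι * σ π :=
  (wd F ι).conj π _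

/-- `M` factors through `k` columns. -/
def Rk (k : ℕ) (M : Matrix ι ι ℍ[F]) : Prop :=
  ∃ (X : Matrix ι (Fin k) ℍ[F]) (Y : Matrix (Fin k) ι ℍ[F]), M = X * Y

/-- No conjugate under `K` of a `t c` is a transposition matrix. -/
def NoSw (K : Subgroup (UG F ι)) : Prop :=
  ∀ g ∈ K, ∀ c a b : ι, a ≠ b → g * t F c * g⁻¹ ≠ σ (Equiv.swap a b)

/-- The case that `Q` is a Sylow 2-subgroup with normalizer `Q ⟨w⟩`. -/
def Small (F : Type*) [Field F] [NeZero (2 : F)] : Prop :=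
  (∃ P : Sylow 2 (U1 F), (P : Subgroup (U1 F)) = Q F) ∧
    ∀ n ∈ normalizer (Q F : Set (U1 F)), ∃ q ∈ Q F, ∃ e : ℕ, n = q * uw ^ e

end Cfsg.Agent.PN
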