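import Cfsg.Agent.PN.Defs

set_option autoImplicit false
set_option linter.unusedSectionVars false
set_option linter.unusedVariables false
set_option linter.unusedSimpArgs false

namespace Cfsg.Agent.PN

open Quaternion Matrix Subgroup

variable {F : Type*} [Field F] {ι : Type*} [Fintype ι] [DecidableEq ι]

theorem iso_ab [Finite F] : ∃ a b : F, a ^ 2 + b ^ 2 = -1 := by
  obtain ⟨p, hp⟩ := CharP.exists F
  have : NeZero p := ⟨CharP.char_ne_zero_of_finite F p⟩
  obtain ⟨x, y, h⟩ := CharP.sq_add_sq F p (-1)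
  exact ⟨x, y, by simpa using h⟩

/-- The four matrix entries of a quaternion. -/
def isoP (a b : F) : ℍ[F] →+ F :=
  AddMonoidHom.mk' (fun x => x.re + x.imI * a - x.imK * b) fun x y => by simp; ring

def isoR (a b : F) : ℍ[F] →+ F :=
  AddMonoidHom.mk' (fun x => x.imI * b + x.imJ + x.imK * a) fun x y => by simp; ring

def isoS (a b : F) : ℍ[F] →+ F :=
  AddMonoidHom.mk' (fun x => x.imI * b - x.imJ + x.imK * a) fun x y => by simp; ring

def isoU (a b : F) : ℍ[F] →+ F :=
  AddMonoidHom.mk' (fun x => x.re - x.imI * a + x.imK * b) fun x y => by simp; ring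

theorem isoP_apply (a b : F) (x : ℍ[F]) : isoP a b x = x.re + x.imI * a - x.imK * b := rfl
theorem isoR_apply (a b : F) (x : ℍ[F]) : isoR a b x = x.imI * b + x.imJ + x.imK * a := rfl
theorem isoS_apply (a b : F) (x : ℍ[F]) : isoS a b x = x.imI * b - x.imJ + x.imK * a := rfl
theorem isoU_apply (a b : F) (x : ℍ[F]) : isoU a b x = x.re - x.imI * a + x.imK * b := rfl

section

variable {a b : F} (h : a ^ 2 + b ^ 2 = -1)
include h

theorem isoP_mul (x y : ℍ[F]) :
    isoP a b (x * y) = isoP a b x * isoP a b y + isoR a b x * isoS a b y := by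
  simp only [isoP_apply, isoR_apply, isoS_apply, re_mul, imI_mul, imK_mul]
  linear_combination (-(x.imI * y.imI) - x.imK * y.imK) * h

theorem isoR_mul (x y : ℍ[F]) :
    isoR a b (x * y) = isoP a b x * isoR a b y + isoR a b x * isoU a b y := by
  simp only [isoP_apply, isoR_apply, isoU_apply, imJ_mul, imI_mul, imK_mul]
  linear_combination (x.imK * y.imI - x.imI * y.imK) * h

theorem isoS_mul (x y : ℍ[F]) :
    isoS a b (x * y) = isoS a b x * isoP a b y + isoU a b x * isoS a b y := by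
  simp only [isoP_apply, isoS_apply, isoU_apply, imJ_mul, imI_mul, imK_mul]
  linear_combination (x.imI * y.imK - x.imK * y.imI) * h

theorem isoU_mul (x y : ℍ[F]) :
    isoU a b (x * y) = isoS a b x * isoR a b y + isoU a b x * isoU a b y := by
  simp only [isoR_apply, isoS_apply, isoU_apply, re_mul, imI_mul, imK_mul]
  linear_combination (-(x.imI * y.imI) - x.imK * y.imK) * h

theorem iso_det (x : ℍ[F]) :
    isoP a b x * isoU a b x - isoR a b x * isoS a b x = normSq x := by
  simp only [isoP_apply, isoR_apply, isoS_apply, isoU_apply, normSq_def']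
  linear_combination (-(x.imI ^ 2) - x.imK ^ 2) * h

theorem iso_inj [NeZero (2 : F)] {x y : ℍ[F]} (hp : isoP a b x = isoP a b y)
    (hr : isoR a b x = isoR a b y) (hs : isoS a b x = isoS a b y)
    (hu : isoU a b x = isoU a b y) : x = y := by
  have h2 := two_ne (F := F)
  simp only [isoP_apply, isoR_apply, isoS_apply, isoU_apply] at hp hr hs hu
  ext
  · exact mul_left_cancel₀ h2 (by linear_combination hp + hu)
  · exact mul_left_cancel₀ h2 (by
      linear_combination (-a) * (hp - hu) - b * (hr + hs) + (2 * (x.imI - y.imI)) * h)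
  · exact mul_left_cancel₀ h2 (by linear_combination hr - hs)
  · exact mul_left_cancel₀ h2 (by
      linear_combination b * (hp - hu) - a * (hr + hs) + (2 * (x.imK - y.imK)) * h)

theorem iso_surj [NeZero (2 : F)] (p r s u : F) : ∃ x : ℍ[F],
    isoP a b x = p ∧ isoR a b x = r ∧ isoS a b x = s ∧ isoU a b x = u := by
  have h2 := two_ne (F := F)
  refine ⟨⟨(p + u) / 2, -((p - u) / 2 * a + (r + s) / 2 * b), (r - s) / 2,
    -((r + s) / 2 * a - (p - u) / 2 * b)⟩, ?_, ?_, ?_, ?_⟩
  · refine (isoP_apply _ _ _).trans ?_; dsimp only; field_simp; linear_combination (-(p - u)) * h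
  · refine (isoR_apply _ _ _).trans ?_; dsimp only; field_simp; linear_combination (-(r + s)) * h
  · refine (isoS_apply _ _ _).trans ?_; dsimp only; field_simp; linear_combination (-(r + s)) * h
  · refine (isoU_apply _ _ _).trans ?_; dsimp only; field_simp; linear_combination (p - u) * h

end

theorem isoP_star (a b : F) (x : ℍ[F]) : isoP a b (star x) = isoU a b x := by
  simp [isoP_apply, isoU_apply]; ring
theorem isoR_star (a b : F) (x : ℍ[F]) : isoR a b (star x) = -isoR a b x := by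
  simp [isoR_apply]; ring
theorem isoS_star (a b : F) (x : ℍ[F]) : isoS a b (star x) = -isoS a b x := by
  simp [isoS_apply]; ring
theorem isoU_star (a b : F) (x : ℍ[F]) : isoU a b (star x) = isoP a b x := by
  simp [isoP_apply, isoU_apply]; ring

/-- The block matrix of a quaternionic matrix. -/
def isoM (a b : F) (X : Matrix ι ι ℍ[F]) : Matrix (ι ⊕ ι) (ι ⊕ ι) F :=
  fromBlocks (X.map (isoP a b)) (X.map (isoR a b)) (X.map (isoS a b)) (X.map (isoU a b))

theorem isoM_mul {a b : F} (h : a ^ 2 + b ^ 2 = -1) (X Y : Matrix ι ι ℍ[F]) :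
    isoM a b (X * Y) = isoM a b X * isoM a b Y := by
  rw [isoM, isoM, isoM, fromBlocks_multiply]
  congr 1 <;> ext i j <;>
    simp only [Matrix.map_apply, Matrix.mul_apply, Matrix.add_apply, map_sum, isoP_mul h,
      isoR_mul h, isoS_mul h, isoU_mul h, Finset.sum_add_distrib]

theorem isoM_one (a b : F) : isoM a b (1 : Matrix ι ι ℍ[F]) = 1 := by
  rw [isoM, ← fromBlocks_one]
  congr 1 <;> ext i j <;> by_cases e : i = j <;>
    simp [Matrix.map_apply, Matrix.one_apply, e, isoP_apply, isoR_apply, isoS_apply, isoU_apply]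

theorem isoM_star (a b : F) (X : Matrix ι ι ℍ[F]) :
    isoM a b (star X) = -(J ι F * (isoM a b X)ᵀ * J ι F) := by
  rw [isoM, isoM, fromBlocks_transpose, J, fromBlocks_multiply, fromBlocks_multiply,
    fromBlocks_neg]
  congr 1 <;> ext i j <;>
    simp [Matrix.map_apply, Matrix.star_apply, isoP_star, isoR_star, isoS_star, isoU_star]

theorem isoM_inj [NeZero (2 : F)] {a b : F} (h : a ^ 2 + b ^ 2 = -1) {X Y : Matrix ι ι ℍ[F]}
    (e : isoM a b X = isoM a b Y) : X = Y := by
  obtain ⟨e1, e2, e3, e4⟩ := fromBlocks_inj.1 e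
  ext1 i j
  exact iso_inj h (congrFun (congrFun e1 i) j) (congrFun (congrFun e2 i) j)
    (congrFun (congrFun e3 i) j) (congrFun (congrFun e4 i) j)

theorem isoM_surj [NeZero (2 : F)] {a b : F} (h : a ^ 2 + b ^ 2 = -1)
    (M : Matrix (ι ⊕ ι) (ι ⊕ ι) F) : ∃ X : Matrix ι ι ℍ[F], isoM a b X = M := by
  choose f hf using fun i j : ι => iso_surj h (M.toBlocks₁₁ i j) (M.toBlocks₁₂ i j)
    (M.toBlocks₂₁ i j) (M.toBlocks₂₂ i j)
  refine ⟨Matrix.of f, ?_⟩
  rw [isoM, ← fromBlocks_toBlocks M]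
  congr 1 <;> ext i j
  exacts [(hf i j).1, (hf i j).2.1, (hf i j).2.2.1, (hf i j).2.2.2]

theorem isoM_mem [NeZero (2 : F)] {a b : F} (h : a ^ 2 + b ^ 2 = -1) (X : Matrix ι ι ℍ[F]) :
    isoM a b X ∈ Matrix.symplecticGroup ι F ↔ X ∈ unitary (Matrix ι ι ℍ[F]) := by
  have hJ : J ι F * J ι F = -1 := J_squared ι F
  constructor
  · intro hm
    have h1 := SymplecticGroup.mem_iff.1 hm
    have h2 := SymplecticGroup.mem_iff'.1 hm
    refine ⟨isoM_inj h ?_, isoM_inj h ?_⟩
    · rw [isoM_mul h, isoM_one, isoM_star, neg_mul,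
        show J ι F * (isoM a b X)ᵀ * J ι F * isoM a b X =
          J ι F * ((isoM a b X)ᵀ * J ι F * isoM a b X) by simp only [Matrix.mul_assoc],
        h2, hJ, neg_neg]
    · rw [isoM_mul h, isoM_one, isoM_star, mul_neg,
        show isoM a b X * (J ι F * (isoM a b X)ᵀ * J ι F) =
          (isoM a b X * J ι F * (isoM a b X)ᵀ) * J ι F by simp only [Matrix.mul_assoc],
        h1, hJ, neg_neg]
  · intro hm
    have h1 := congrArg (isoM a b) hm.2
    rw [isoM_mul h, isoM_one, isoM_star, mul_neg,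
      show isoM a b X * (J ι F * (isoM a b X)ᵀ * J ι F) =
        (isoM a b X * J ι F * (isoM a b X)ᵀ) * J ι F by simp only [Matrix.mul_assoc]] at h1
    rw [SymplecticGroup.mem_iff]
    have h2 := congrArg (· * J ι F) h1
    simp only [neg_mul, Matrix.mul_assoc _ (J ι F) (J ι F), hJ, mul_neg, mul_one, neg_neg,
      one_mul] at h2
    exact h2

theorem exists_iso [Finite F] [NeZero (2 : F)] :
    Nonempty (UG F ι ≃* Matrix.symplecticGroup ι F) := by
  obtain ⟨a, b, h⟩ := iso_ab (F := F)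
  let f : UG F ι →* Matrix.symplecticGroup ι F :=
    MonoidHom.mk' (fun X => ⟨isoM a b X.1, (isoM_mem h _).2 X.2⟩)
      fun X Y => Subtype.ext (isoM_mul h _ _)
  refine ⟨MulEquiv.ofBijective f ⟨fun X Y e => Subtype.ext (isoM_inj h (congrArg Subtype.val e)),
    fun M => ?_⟩⟩
  obtain ⟨X, hX⟩ := isoM_surj h M.1
  exact ⟨⟨X, (isoM_mem h X).1 (hX ▸ M.2)⟩, Subtype.ext hX⟩

theorem exists_iso1 [Finite F] [NeZero (2 : F)] :
    Nonempty (U1 F ≃* Matrix.SpecialLinearGroup (Fin 2) F) := by
  obtain ⟨a, b, h⟩ := iso_ab (F := F)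
  let f : U1 F →* Matrix.SpecialLinearGroup (Fin 2) F :=
    MonoidHom.mk' (fun x => ⟨!![isoP a b x, isoR a b x; isoS a b x, isoU a b x], by
        rw [Matrix.det_fin_two_of, iso_det h, normSq_U1]⟩)
      fun x y => Subtype.ext (by
        refine Eq.trans ?_ (Matrix.SpecialLinearGroup.coe_mul _ _).symm
        simp only [coe_mul_U1, Matrix.mul_fin_two, isoP_mul h,
          isoR_mul h, isoS_mul h, isoU_mul h])
  refine ⟨MulEquiv.ofBijective f ⟨fun x y e => ?_, fun M => ?_⟩⟩
  · have e' : ∀ i j, (f x).1 i j = (f y).1 i j := fun i j => by rw [e]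
    exact Subtype.ext (iso_inj h (e' 0 0) (e' 0 1) (e' 1 0) (e' 1 1))
  · obtain ⟨x, h1, h2, h3, h4⟩ := iso_surj h (M.1 0 0) (M.1 0 1) (M.1 1 0) (M.1 1 1)
    have hx : normSq x = 1 := by
      rw [← iso_det h, h1, h2, h3, h4, ← Matrix.det_fin_two, M.2]
    refine ⟨⟨x, mem_U1.2 hx⟩, Subtype.ext ?_⟩
    change !![isoP a b x, isoR a b x; isoS a b x, isoU a b x] = M.1
    rw [h1, h2, h3, h4]
    exact (Matrix.eta_fin_two M.1).symm

end Cfsg.Agent.PN
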