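import Cfsg.Agent.PN.Defs

set_option autoImplicit false
set_option linter.unusedSectionVars false
set_option linter.unusedVariables false
set_option linter.unusedSimpArgs false

namespace Cfsg.Agent.PN

open Quaternion Matrix Subgroup

variable {F : Type*} [Field F] {ι : Type*} [Fintype ι] [DecidableEq ι]

theorem Rk.le [Finite F] {k n : ℕ} {M : Matrix ι ι ℍ[F]} (h : Rk k M) (r : Fin n → ι)
    (d : Fin n → ℍ[F]) (hd : ∀ i, IsUnit (d i))
    (hM : ∀ i j, M (r i) (r j) = if i = j then d i else 0) : n ≤ k := by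
  obtain ⟨X, Y, rfl⟩ := h
  have e : X.submatrix r id * Y.submatrix id r = diagonal d := by
    ext1 i j
    rw [diagonal_apply, ← hM]
    simp [Matrix.mul_apply]
  have inj : Function.Injective fun v : Fin n → ℍ[F] => Y.submatrix id r *ᵥ v := fun v w hvw => by
    have h1 : diagonal d *ᵥ v = diagonal d *ᵥ w := by
      rw [← e, ← mulVec_mulVec, ← mulVec_mulVec]
      exact congrArg _ hvw
    funext i
    have h2 := congrFun h1 i
    rw [mulVec_diagonal, mulVec_diagonal] at h2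
    exact (hd i).mul_left_cancel h2
  have := Nat.card_le_card_of_injective _ inj
  rw [Nat.card_fun, Nat.card_fun, Nat.card_eq_fintype_card (α := Fin n),
    Nat.card_eq_fintype_card (α := Fin k), Fintype.card_fin, Fintype.card_fin] at this
  exact (Nat.pow_le_pow_iff_right Finite.one_lt_card).1 this

theorem Rk.conj {k : ℕ} {x : UG F ι} (h : Rk k (1 - x.1)) (g : UG F ι) :
    Rk k (1 - (g * x * g⁻¹).1) := by
  obtain ⟨X, Y, e⟩ := h
  refine ⟨g.1 * X, Y * star g.1, ?_⟩
  rw [Matrix.mul_assoc, ← Matrix.mul_assoc X, ← e, coe_mul_UG, coe_mul_UG, coe_inv_UG, sub_mul,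
    mul_sub, one_mul, g.2.2, mul_assoc]

theorem rk_t (c : ι) : Rk 1 (1 - (t F c).1) := by
  refine ⟨Matrix.of fun a _ => if a = c then 2 else 0, Matrix.of fun _ b => if b = c then 1 else 0, ?_⟩
  ext1 a b
  rw [Matrix.sub_apply, t_apply, Matrix.one_apply, Matrix.mul_apply, Fin.sum_univ_one]
  by_cases ha : a = c <;> by_cases hb : b = c
  · subst ha hb; simp [one_add_one_eq_two]
  · subst ha; simp [hb, Ne.symm hb]
  · subst hb; simp [ha]
  · simp [ha, hb]

theorem rk_tt (a b : ι) : Rk 2 (1 - (t F a * t F b).1) := by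
  obtain ⟨X, Y, e⟩ := rk_t (F := F) a
  obtain ⟨X', Y', e'⟩ := rk_t (F := F) b
  refine ⟨Matrix.of fun x i => ![X x 0, ((t F a).1 * X') x 0] i,
    Matrix.of fun i x => ![Y 0 x, Y' 0 x] i, ?_⟩
  rw [show 1 - (t F a * t F b).1 = 1 - (t F a).1 + (t F a).1 * (1 - (t F b).1) by
    rw [coe_mul_UG]; noncomm_ring, e', e, ← Matrix.mul_assoc]
  ext1 x z
  rw [Matrix.add_apply, Matrix.mul_apply, Matrix.mul_apply (N := Y'), Matrix.mul_apply,
    Fin.sum_univ_one, Fin.sum_univ_one, Fin.sum_univ_two]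
  rfl

theorem rk_swap (a b : ι) : Rk 1 (1 - (σ (Equiv.swap a b) : UG F ι).1) := by
  refine ⟨Matrix.of fun x _ => (if x = a then 1 else 0) - (if x = b then 1 else 0),
    Matrix.of fun _ x => (if x = a then 1 else 0) - (if x = b then 1 else 0), ?_⟩
  ext1 x z
  rw [Matrix.sub_apply, σ_apply, Matrix.one_apply, Matrix.mul_apply, Fin.sum_univ_one,
    Matrix.of_apply, Matrix.of_apply]
  by_cases hab : a = b
  · subst hab; simp
  by_cases ha : z = a
  · subst ha; simp [hab]
  by_cases hb : z = b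
  · subst hb; simp [ha]
  · simp [ha, hb, Equiv.swap_apply_of_ne_of_ne ha hb]

theorem Rk.not_two [Finite F] {M : Matrix ι ι ℍ[F]} (h : Rk 1 M) {a b : ι} (ha : IsUnit (M a a))
    (hb : IsUnit (M b b)) (h1 : M a b = 0) (h2 : M b a = 0) : False := by
  have := h.le ![a, b] ![M a a, M b b] (fun i => by fin_cases i; exacts [ha, hb]) fun i j => by
    fin_cases i <;> fin_cases j <;> simp [h1, h2]
  omega

theorem eq_t_of_rk [Finite F] [NeZero (2 : F)] {x : UG F ι} (hx : x ∈ A F ι) (h1 : x ≠ 1)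
    (h : Rk 1 (1 - x.1)) : ∃ b, x = t F b := by
  obtain ⟨f, hf, rfl⟩ := mem_A.1 hx
  obtain ⟨b, hb⟩ : ∃ b, f b = -1 := by
    by_contra hc
    push Not at hc
    exact h1 (by rw [show f = 1 from funext fun a => (hf a).resolve_right (hc a), map_one])
  have e : ∀ c, f c = -1 → IsUnit ((1 - (β f : UG F ι).1) c c) := fun c hc => by
    rw [Matrix.sub_apply, β_apply, if_pos rfl, hc, Matrix.one_apply_eq, coe_neg_U1, coe_one_U1,
      sub_neg_eq_add, one_add_one_eq_two]
    exact isUnit_two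
  refine ⟨b, ?_⟩
  rw [t, ins_eq]
  congr 1
  funext c
  by_cases hc : c = b
  · subst hc; rw [Pi.mulSingle_eq_same, hb]
  rw [Pi.mulSingle_eq_of_ne hc]
  refine (hf c).resolve_right fun h2 => h.not_two (e c h2) (e b hb) ?_ ?_
  · rw [Matrix.sub_apply, β_apply, if_neg hc, Matrix.one_apply_ne hc, sub_zero]
  · rw [Matrix.sub_apply, β_apply, if_neg (Ne.symm hc), Matrix.one_apply_ne (Ne.symm hc), sub_zero]

theorem mono_sq {f : ι → U1 F} {π : Equiv.Perm ι}
    (h2 : β f * σ π * (β f * σ π) = (1 : UG F ι)) :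
    (∀ a, π (π a) = a) ∧ ∀ a, f a * f (π a) = 1 := by
  rw [mono_mul] at h2
  obtain ⟨e1, e2⟩ := mono_inj (h := 1) (ρ := 1) (h2.trans (by rw [map_one, map_one, mul_one]))
  refine ⟨fun a => congrFun (congrArg DFunLike.coe e2) a, fun a => ?_⟩
  rw [← inv_eq_of_mul_eq_one_right e2]
  exact congrFun e1 a

theorem mono_rk [Finite F] [NeZero (2 : F)] {f : ι → U1 F} {π : Equiv.Perm ι}
    (h2 : β f * σ π * (β f * σ π) = (1 : UG F ι)) (h1 : β f * σ π ≠ (1 : UG F ι))
    (h : Rk 1 (1 - (β f * σ π : UG F ι).1)) :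
    (∃ b, β f * σ π = t F b) ∨ ∃ a b, a ≠ b ∧
      β f * σ π = ins a (f a) * σ (Equiv.swap a b) * (ins a (f a) : UG F ι)⁻¹ := by
  obtain ⟨e1, e2⟩ := mono_sq h2
  by_cases hπ : π = 1
  · subst hπ
    rw [map_one, mul_one] at h1 h ⊢
    exact Or.inl (eq_t_of_rk (mem_A.2 ⟨f, fun a => mem_Z_of_sq (e2 a), rfl⟩) h1 h)
  obtain ⟨a, ha⟩ : ∃ a, π a ≠ a := by
    by_contra hc
    push Not at hc
    exact hπ (Equiv.ext hc)
  have ent : ∀ x z, (1 - (β f * σ π : UG F ι).1) x z =
      (if x = z then 1 else 0) - if x = π z then (f x : ℍ[F]) else 0 := fun x z => by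
    rw [Matrix.sub_apply, mono_apply, Matrix.one_apply]
  have key : ∀ c, c ≠ a → c ≠ π a → π c = c ∧ f c = 1 := fun c hca hcb => by
    by_contra hc
    refine h.not_two (a := a) (b := c) ?_ ?_ ?_ ?_
    · rw [ent, if_pos rfl, if_neg ha.symm, sub_zero]; exact isUnit_one
    · rw [ent, if_pos rfl]
      by_cases h3 : c = π c
      · have h4 := e2 c
        rw [← h3] at h4
        rw [if_pos h3, (mem_Z_of_sq h4).resolve_left fun h5 => hc ⟨h3.symm, h5⟩, coe_neg_U1,
          coe_one_U1, sub_neg_eq_add, one_add_one_eq_two]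
        exact isUnit_two
      · rw [if_neg h3, sub_zero]; exact isUnit_one
    · rw [ent, if_neg hca.symm, if_neg, sub_zero]
      rintro rfl
      exact hcb (e1 c).symm
    · rw [ent, if_neg hca, if_neg hcb, sub_zero]
  refine Or.inr ⟨a, π a, ha.symm, ?_⟩
  have hs : π = Equiv.swap a (π a) := Equiv.ext fun c => by
    by_cases hca : c = a
    · rw [hca, Equiv.swap_apply_left]
    by_cases hcb : c = π a
    · rw [hcb, Equiv.swap_apply_right, e1]
    · rw [Equiv.swap_apply_of_ne_of_ne hca hcb, (key c hca hcb).1]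
  rw [← hs, ← map_inv, mul_assoc, mul_inv_eq_iff_eq_mul.1 (σ_conj_ins π a _), ← mul_assoc, ins_eq,
    ins_eq, ← map_mul]
  congr 2
  funext c
  rw [Pi.mul_apply]
  by_cases hca : c = a
  · rw [hca, Pi.mulSingle_eq_same, Pi.mulSingle_eq_of_ne ha.symm, mul_one]
  by_cases hcb : c = π a
  · rw [hcb, Pi.mulSingle_eq_same, Pi.mulSingle_eq_of_ne ha, one_mul,
      inv_eq_of_mul_eq_one_right (e2 a)]
  · rw [Pi.mulSingle_eq_of_ne hca, Pi.mulSingle_eq_of_ne hcb, mul_one, (key c hca hcb).2]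

theorem mono_of_perm [NeZero (2 : F)] {g : UG F ι} (h : ∀ c, ∃ b, g * t F c * g⁻¹ = t F b) :
    ∃ f π, g = β f * σ π := by
  choose p hp using h
  have inj : Function.Injective p := fun a b e =>
    t_inj (F := F) (mul_left_cancel (mul_right_cancel ((hp a).trans (by rw [e, hp b]))))
  let π := Equiv.ofBijective p (Finite.injective_iff_bijective.1 inj)
  have z : ∀ a c, a ≠ π c → g.1 a c = 0 := fun a c hac => by
    have e := congrArg (fun x : UG F ι => x.1 a c) (mul_inv_eq_iff_eq_mul.1 (hp c))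
    simp only [t, ins_eq, mul_β_apply, β_mul_apply] at e
    rw [Pi.mulSingle_eq_same, Pi.mulSingle_eq_of_ne (show a ≠ p c from hac)] at e
    exact eq_zero_of_eq_neg (by simpa [coe_neg_U1] using e.symm)
  have u : ∀ a, g.1 a (π⁻¹ a) ∈ unitary ℍ[F] := fun a => by
    have e := congrFun (congrFun g.2.2 a) a
    rw [Matrix.mul_apply, Finset.sum_eq_single (π⁻¹ a), Matrix.one_apply_eq, Matrix.star_apply,
      Quaternion.self_mul_star, ← Quaternion.coe_one, Quaternion.coe_inj] at e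
    · exact mem_U1.2 e
    · intro c _ hc
      rw [z a c (fun e => hc (by rw [e]; simp)), zero_mul]
    · simp
  refine ⟨fun a => ⟨_, u a⟩, π, ext_UG fun a c => ?_⟩
  rw [mono_apply]
  split_ifs with hac
  · subst hac; simp
  · exact z a c hac

theorem perm_of_norm [Finite F] [NeZero (2 : F)] {g : UG F ι}
    (h : g ∈ normalizer (A F ι : Set (UG F ι))) (c : ι) : ∃ b, g * t F c * g⁻¹ = t F b := by
  refine eq_t_of_rk ((mem_normalizer_iff.1 h _).1 (t_mem_A c)) (fun e => ?_) ((rk_t c).conj g)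
  have e1 : t F c = 1 := by simpa using e
  have := congrArg (fun x : UG F ι => x.1 c c) e1
  simp only [t_apply, if_true, coe_one_UG, Matrix.one_apply_eq] at this
  exact neg_one_ne (F := F) (Subtype.ext this)

end Cfsg.Agent.PN
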