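import Cfsg.Agent.PN.Defs

set_option autoImplicit false
set_option linter.unusedSectionVars false
set_option linter.unusedVariables false
set_option linter.unusedSimpArgs false
set_option linter.unnecessarySeqFocus false

namespace Cfsg.Agent.PN

open Quaternion Matrix Subgroup

variable {F : Type*} [Field F] {ι : Type*} [Fintype ι] [DecidableEq ι]

/-- The identity changed in the two rows and columns `a`, `b`. -/
def swN (a b : ι) (x y z u : ℍ[F]) : Matrix ι ι ℍ[F] :=
  1 + (single a a x + single a b y + single b a z + single b b u)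

theorem swN_mul {a b : ι} (hab : a ≠ b) (x y z u x' y' z' u' : ℍ[F]) :
    swN a b x y z u * swN a b x' y' z' u' = swN a b (x + x' + (x * x' + y * z'))
      (y + y' + (x * y' + y * u')) (z + z' + (z * x' + u * z')) (u + u' + (z * y' + u * u')) := by
  simp only [swN, add_mul, mul_add, one_mul, mul_one, single_mul_single_same,
    single_mul_single_of_ne _ _ _ _ hab, single_mul_single_of_ne _ _ _ _ hab.symm, single_add]
  abel

theorem swN_apply {a b : ι} (hab : a ≠ b) (h : ℍ[F]) (v : ι → ℍ[F]) (va : v a = 1)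
    (vb : v b = -1) (vx : ∀ x, x ≠ a → x ≠ b → v x = 0) (x y : ι) :
    swN a b h (-h) (-h) h x y = (if x = y then 1 else 0) + v x * h * v y := by
  rw [swN, Matrix.add_apply, Matrix.one_apply]
  congr 1
  simp only [Matrix.add_apply, Matrix.single_apply]
  have hba := hab.symm
  by_cases xa : a = x
  · subst xa
    by_cases ya : a = y
    · subst ya; simp [hab, hba, va]
    · by_cases yb : b = y
      · subst yb; simp [hab, hba, va, vb]
      · simp [hab, hba, ya, yb, vx y (Ne.symm ya) (Ne.symm yb)]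
  · by_cases xb : b = x
    · subst xb
      by_cases ya : a = y
      · subst ya; simp [hab, hba, va, vb]
      · by_cases yb : b = y
        · subst yb; simp [hab, hba, va, vb]
        · simp [hab, hba, ya, yb, vx y (Ne.symm ya) (Ne.symm yb)]
    · simp [xa, xb, vx x (Ne.symm xa) (Ne.symm xb)]

theorem sw_le {G : Type*} [Group G] [Finite G] {X P : Subgroup G} (hP : IsPGroup 2 P)
    (hX : ¬ 2 ∣ X.index) (h : P ≤ normalizer (X : Set G)) : P ≤ X := by
  intro p hp
  have h1 := pow_index_mem (X.subgroupOf (normalizer (X : Set G))) ⟨p, h hp⟩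
  have h2 : p ^ (X.relIndex (normalizer (X : Set G))) ∈ X := h1
  obtain ⟨k, hk⟩ := hP ⟨p, hp⟩
  have h3 : orderOf p ∣ 2 ^ k := orderOf_dvd_of_pow_eq_one (congrArg Subtype.val hk)
  have h4 : ¬ 2 ∣ X.relIndex (normalizer (X : Set G)) := fun e =>
    hX (e.trans (relIndex_dvd_index_of_le le_normalizer))
  refine zpowers_le.2 h2 (mem_zpowers_pow_iff.2 ?_)
  exact Nat.Coprime.coprime_dvd_right h3
    (Nat.Coprime.pow_right _ ((Nat.Prime.coprime_iff_not_dvd Nat.prime_two).2 h4).symm)

theorem sw [Finite F] [NeZero (2 : F)] (P : Sylow 2 (U1 F)) (hQ : Q F ≤ P)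
    {K0 : Subgroup (UG F ι)} (hP : ∀ a : ι, ∀ p ∈ (P : Subgroup (U1 F)), ins a p ∈ K0)
    {g : UG F ι} (hg : g ∈ normalizer (K0 : Set (UG F ι))) {c a b : ι} (hab : a ≠ b)
    (h : g * t F c * g⁻¹ = σ (Equiv.swap a b)) : ins a uw * ins b uw ∈ K0 := by
  have h2 := two_ne (F := F)
  have e : ∀ x y, (if x = y then 1 else 0) - 2 * (g.1 x c * star (g.1 y c)) =
      if x = Equiv.swap a b y then (1 : ℍ[F]) else 0 := fun x y => by
    rw [← conj_t_apply, h, σ_apply]
  set κ := g.1 a c with hκ
  have e1 : 2 * (κ * star κ) = 1 := by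
    have := e a a
    rw [if_pos rfl, Equiv.swap_apply_left, if_neg hab, sub_eq_zero] at this
    exact this.symm
  have e1' : 2 * (star κ * κ) = 1 := by rw [star_mul_self, ← self_mul_star, e1]
  have c2 : ∀ x : ℍ[F], x * 2 = 2 * x := fun x => by rw [mul_two, two_mul]
  have canc : ∀ x : ℍ[F], 2 * (x * star κ) * κ = x := fun x => by
    rw [mul_assoc, mul_assoc, ← mul_assoc 2, ← c2, mul_assoc, e1', mul_one]
  have e2 : g.1 b c = -κ := by
    have := e b a
    rw [if_neg hab.symm, Equiv.swap_apply_left, if_pos rfl, zero_sub, neg_eq_iff_eq_neg] at this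
    rw [← canc (g.1 b c), this, neg_one_mul]
  have e3 : ∀ x, x ≠ a → x ≠ b → g.1 x c = 0 := fun x xa xb => by
    have := e x a
    rw [if_neg xa, Equiv.swap_apply_left, if_neg xb, zero_sub, neg_eq_zero] at this
    rw [← canc (g.1 x c), this, zero_mul]
  have n1 : 2 * normSq κ = 1 := by
    have := congrArg QuaternionAlgebra.re e1
    rw [self_mul_star, two_eq, ← Quaternion.coe_mul, re_coe] at this
    exact this
  -- the automorphism `q ↦ κ⁻¹ q κ`
  let θ : U1 F →* U1 F := MonoidHom.mk' (fun q => ⟨2 * star κ * q * κ, mem_U1.2 (by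
      rw [map_mul, map_mul, map_mul, normSq_U1, normSq_star, two_eq, normSq_coe]
      linear_combination (2 * normSq κ + 1) * n1)⟩)
    fun p q => Subtype.ext (by
      change 2 * star κ * ((p : ℍ[F]) * q) * κ = 2 * star κ * p * κ * (2 * star κ * q * κ)
      have : κ * (2 * star κ) = 1 := by rw [← mul_assoc, c2, mul_assoc, e1]
      calc _ = 2 * star κ * p * (κ * (2 * star κ)) * q * κ := by rw [this]; noncomm_ring
        _ = _ := by noncomm_ring)
  have hθ : ∀ q : U1 F, (θ q : ℍ[F]) = 2 * star κ * q * κ := fun q => rfl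
  have hθ' : ∀ q : U1 F, κ * ((θ q : ℍ[F]) - 1) * star κ = (2 : F)⁻¹ • ((q : ℍ[F]) - 1) := by
    intro q
    rw [eq_inv_smul_iff₀ h2, two_smul, ← two_mul, hθ]
    have : κ * (2 * star κ) = 1 := by rw [← mul_assoc, c2, mul_assoc, e1]
    calc _ = κ * (2 * star κ) * q * (2 * (κ * star κ)) - 2 * (κ * star κ) := by
          simp only [two_mul]; noncomm_ring
      _ = _ := by rw [this, e1, one_mul, mul_one]
  have hθi : Function.Injective θ := (injective_iff_map_eq_one θ).2 fun q hq => by
    have := hθ' q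
    rw [hq, coe_one_U1, sub_self, mul_zero, zero_mul, eq_comm, smul_eq_zero] at this
    exact Subtype.ext (sub_eq_zero.1 (this.resolve_left (inv_ne_zero h2)))
  let R : U1 F →* UG F ι := (MulAut.conj g).toMonoidHom.comp ((ins c).comp θ)
  let v : ι → ℍ[F] := fun x => if x = a then 1 else if x = b then -1 else 0
  have hv : ∀ x, g.1 x c = v x * κ := fun x => by
    by_cases xa : x = a
    · subst xa; simp [v, hκ]
    · by_cases xb : x = b
      · subst xb; simp [v, xa, e2]
      · simp [v, xa, xb, e3 x xa xb]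
  have hvs : ∀ x, star (v x) = v x := fun x => by simp only [v]; split_ifs <;> simp
  have hR : ∀ q x y, (R q).1 x y =
      (if x = y then 1 else 0) + v x * ((2 : F)⁻¹ • ((q : ℍ[F]) - 1)) * v y := fun q x y => by
    change (g * ins c (θ q) * g⁻¹).1 x y = _
    rw [conj_ins_apply, hv x, hv y, star_mul, hvs, ← hθ']
    simp only [mul_assoc]
  have hRN : ∀ q, (R q).1 = swN a b ((2 : F)⁻¹ • ((q : ℍ[F]) - 1))
      (-((2 : F)⁻¹ • ((q : ℍ[F]) - 1))) (-((2 : F)⁻¹ • ((q : ℍ[F]) - 1)))
      ((2 : F)⁻¹ • ((q : ℍ[F]) - 1)) := fun q => Matrix.ext fun x y => by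
    rw [hR, swN_apply hab _ v (by simp [v]) (by simp [v, hab.symm])
      fun x xa xb => by simp [v, xa, xb]]
  have ha : ∀ p : U1 F, (ins a p : UG F ι).1 = swN a b ((p : ℍ[F]) - 1) 0 0 0 := fun p => by
    rw [coe_ins, swN]; simp
  have hb : ∀ p : U1 F, (ins b p : UG F ι).1 = swN a b 0 0 0 ((p : ℍ[F]) - 1) := fun p => by
    rw [coe_ins, swN]; simp
  have hX : (P : Subgroup (U1 F)) ≤ K0.comap R := by
    refine sw_le P.isPGroup' (fun d => ?_) fun p hp => mem_normalizer_fintype fun q hq => ?_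
    · have hle : (P : Subgroup (U1 F)).comap θ ≤ K0.comap R := fun q hq =>
        (mem_normalizer_iff.1 hg _).1 (hP c _ hq)
      have := d.trans (index_dvd_of_le hle)
      rw [index_comap_of_surjective _ (Finite.injective_iff_surjective.1 hθi)] at this
      exact P.not_dvd_index this
    · have hd : ins a p * ins b p ∈ K0 := mul_mem (hP a p hp) (hP b p hp)
      have : R (p * q * p⁻¹) = ins a p * ins b p * R q * (ins a p * ins b p)⁻¹ := by
        rw [eq_mul_inv_iff_mul_eq]
        apply Subtype.ext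
        simp only [coe_mul_UG, hRN, ha, hb, swN_mul hab, coe_mul_U1, coe_inv_U1]
        have s1 : (p : ℍ[F]) * q * star (p : ℍ[F]) * p = p * q := by
          rw [mul_assoc, star_mul_U1, mul_one]
        generalize (p : ℍ[F]) * q * star (p : ℍ[F]) = r at s1 ⊢
        have s2 : (2 : F)⁻¹ • (r - 1) * p = p * (2 : F)⁻¹ • ((q : ℍ[F]) - 1) := by
          rw [smul_mul_assoc, mul_smul_comm, sub_mul, mul_sub, s1, one_mul, mul_one]
        generalize (2 : F)⁻¹ • (r - 1) = r1 at s2 ⊢
        generalize (2 : F)⁻¹ • ((q : ℍ[F]) - 1) = r2 at s2 ⊢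
        congr 1
        · linear_combination (norm := noncomm_ring) s2
        · linear_combination (norm := noncomm_ring) -s2
        · linear_combination (norm := noncomm_ring) -s2
        · linear_combination (norm := noncomm_ring) s2
      change R (p * q * p⁻¹) ∈ K0
      rw [this]
      exact mul_mem (mul_mem hd hq) (inv_mem hd)
  have key : R ui * ins a (-1) * ins b uj * R uk = ins a uk * (ins a uw * ins b uw) := by
    apply Subtype.ext
    simp only [coe_mul_UG, hRN, ha, hb, swN_mul hab, coe_ui, coe_uj, coe_uk, coe_uw, coe_neg_U1,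
      coe_one_U1]
    congr 1 <;> ext <;> simp <;> field_simp <;> ring
  rw [← mul_mem_cancel_left (hP a _ (hQ uk_mem)), ← key]
  exact mul_mem (mul_mem (mul_mem (hX (hQ ui_mem)) (hP a _ (hQ neg_one_mem)))
    (hP b _ (hQ uj_mem))) (hX (hQ uk_mem))

theorem av [NeZero (2 : F)] {K0 : Subgroup (UG F ι)} {T : Subgroup (Equiv.Perm ι)}
    (hT : IsPGroup 2 T) (tr : ∀ a b, ∃ τ ∈ T, τ a = b) (hσ : ∀ τ ∈ T, σ τ ∈ K0) {a b : ι}
    (h : ins a uw * ins b uw ∈ K0) : y F ι ∈ K0 := by
  classical
  let V : AddSubmonoid (ι → ℕ) :=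
    { carrier := {f | (β fun c => (uw : U1 F) ^ f c : UG F ι) ∈ K0}
      zero_mem' := by
        change (β fun c => (uw : U1 F) ^ (0 : ℕ) : UG F ι) ∈ K0
        rw [show (fun c : ι => (uw : U1 F) ^ (0 : ℕ)) = 1 from funext fun _ => pow_zero _, map_one]
        exact one_mem _
      add_mem' := fun {f g} hf hg => by
        have := K0.mul_mem hf hg
        rw [← map_mul] at this
        change (β fun c => (uw : U1 F) ^ (f c + g c) : UG F ι) ∈ K0
        simp only [pow_add]
        exact this }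
  have : Fintype T := Fintype.ofFinite T
  let s : T → ι → ℕ := fun τ c => (if c = τ.1 a then 1 else 0) + if c = τ.1 b then 1 else 0
  have hs : ∀ τ, s τ ∈ V := fun τ => by
    have h1 := mul_mem (mul_mem (hσ _ τ.2) h) (inv_mem (hσ _ τ.2))
    rw [show σ τ.1 * (ins a uw * ins b uw) * (σ τ.1)⁻¹ =
      σ τ.1 * ins a uw * (σ τ.1)⁻¹ * (σ τ.1 * ins b uw * (σ τ.1 : UG F ι)⁻¹) by group,
      σ_conj_ins, σ_conj_ins, ins_eq, ins_eq, ← map_mul] at h1
    change (β fun c => (uw : U1 F) ^ s τ c : UG F ι) ∈ K0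
    convert h1 using 2
    funext c
    simp only [s, pow_add, Pi.mul_apply, Pi.mulSingle_apply]
    split_ifs <;> simp
  have hS : ∑ τ, s τ ∈ V := V.sum_mem fun τ _ => hs τ
  have hc : ∀ c, (∑ τ, s τ) c = (∑ τ, s τ) a := fun c => by
    obtain ⟨ρ, hρ, rfl⟩ := tr a c
    rw [Finset.sum_apply, Finset.sum_apply, ← Equiv.sum_comp (Equiv.mulLeft (⟨ρ, hρ⟩ : T))]
    simp [s]
  have hsum : Fintype.card ι * (∑ τ, s τ) a = Fintype.card T * 2 := by
    rw [← smul_eq_mul, ← Finset.card_univ, ← Finset.sum_const,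
      ← Finset.sum_congr rfl fun c _ => hc c]
    simp only [Finset.sum_apply]
    rw [Finset.sum_comm]
    simp [s, Finset.sum_add_distrib]
  obtain ⟨k, hk⟩ := IsPGroup.iff_card.1 hT
  rw [← Nat.card_eq_fintype_card (α := T), hk, ← pow_succ] at hsum
  have hy : y F ι ^ (∑ τ, s τ) a ∈ K0 := by
    rw [y, ← map_pow]
    have h1 : (β fun c => (uw : U1 F) ^ (∑ τ, s τ) c : UG F ι) ∈ K0 := hS
    simp only [hc] at h1
    exact h1
  refine zpowers_le.2 hy (mem_zpowers_pow_iff.2 ?_)
  exact Nat.Coprime.coprime_dvd_right (orderOf_dvd_of_pow_eq_one y_cube)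
    (Nat.Coprime.coprime_dvd_left (Dvd.intro_left _ hsum) (Nat.Coprime.pow_left _ (by norm_num)))

end Cfsg.Agent.PN
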