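import Cfsg.Agent.PN.Iso
import Cfsg.Agent.H85.GLWr
import Cfsg.Agent.H85.SymSyl
import Cfsg.Agent.S2431
import Cfsg.Agent.S0245

set_option autoImplicit false
set_option linter.unusedSectionVars false
set_option linter.unusedVariables false
set_option linter.unusedSimpArgs false

namespace Cfsg.Agent.PN

open Quaternion Matrix Subgroup

variable {F : Type*} [Field F] {ι : Type*} [Fintype ι] [DecidableEq ι]

theorem syl_card_Q [Finite F] [NeZero (2 : F)] : 8 ≤ Nat.card (Q F) := by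
  have h2 := two_ne (F := F)
  have h1 : (1 : F) ≠ -1 := fun h => h2 (by linear_combination h)
  have h1' : (-1 : F) ≠ 1 := h1.symm
  let f : Fin 8 → Q F := ![1, ⟨-1, neg_one_mem⟩, ⟨ui, ui_mem⟩, ⟨-ui, by simp [mem_Q, coe_neg_U1]⟩,
    ⟨uj, uj_mem⟩, ⟨-uj, by simp [mem_Q, coe_neg_U1]⟩, ⟨uk, uk_mem⟩,
    ⟨-uk, by simp [mem_Q, coe_neg_U1]⟩]
  have hf : Function.Injective f := by
    intro a b e
    have e1 := congrArg (fun x : Q F => ((x : U1 F) : ℍ[F]).re) e
    have e2 := congrArg (fun x : Q F => ((x : U1 F) : ℍ[F]).imI) e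
    have e3 := congrArg (fun x : Q F => ((x : U1 F) : ℍ[F]).imJ) e
    have e4 := congrArg (fun x : Q F => ((x : U1 F) : ℍ[F]).imK) e
    fin_cases a <;> fin_cases b <;>
      first
      | rfl
      | (exfalso; simp [f, coe_neg_U1, h1, h1'] at e1 e2 e3 e4)
  simpa using Nat.card_le_card_of_injective f hf

theorem syl_card_P [Fintype F] [NeZero (2 : F)] (hF : Odd (Fintype.card F)) (P : Sylow 2 (U1 F)) :
    Nat.card P = 2 ^ padicValNat 2 (Fintype.card F ^ 2 - 1) := by
  classical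
  obtain ⟨e⟩ := exists_iso1 (F := F)
  obtain ⟨S⟩ : Nonempty (Sylow 2 (Matrix.SpecialLinearGroup (Fin 2) F)) := inferInstance
  rw [← H85.card_sylow_sl2 hF S, P.card_eq_multiplicity, S.card_eq_multiplicity,
    Nat.card_congr e.toEquiv]

theorem syl_val {q : ℕ} (h : q % 8 = 3 ∨ q % 8 = 5) : padicValNat 2 (q ^ 2 - 1) = 3 := by
  obtain ⟨m, hm⟩ : ∃ m, q ^ 2 - 1 = 2 ^ 3 * (2 * m + 1) := by
    rcases h with h | h
    · obtain ⟨k, rfl⟩ : ∃ k, q = 8 * k + 3 := ⟨q / 8, by omega⟩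
      exact ⟨4 * k ^ 2 + 3 * k, by rw [Nat.sub_eq_iff_eq_add (Nat.one_le_pow _ _ (by omega))]; ring⟩
    · obtain ⟨k, rfl⟩ : ∃ k, q = 8 * k + 5 := ⟨q / 8, by omega⟩
      exact ⟨4 * k ^ 2 + 5 * k + 1, by rw [Nat.sub_eq_iff_eq_add (Nat.one_le_pow _ _ (by omega))]; ring⟩
  rw [hm, padicValNat.mul (by norm_num) (by omega), padicValNat.prime_pow,
    H85.val2_eq_zero ⟨m, rfl⟩]

theorem dich [Fintype F] [NeZero (2 : F)] (hF : Odd (Fintype.card F)) (P : Sylow 2 (U1 F))
    (hQ : Q F ≤ P) :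
    normalizer (P : Set (U1 F)) ≤ P ∨ ((P : Subgroup (U1 F)) = Q F ∧ Small F) := by
  classical
  obtain ⟨e⟩ := exists_iso1 (F := F)
  let S := P.mapSurjective (f := e.toMonoidHom) e.surjective
  have hS : (S : Subgroup _) = (P : Subgroup (U1 F)).map e.toMonoidHom := rfl
  obtain ⟨-, h17, h35⟩ := S2431.result hF S
  have hN : Nat.card (normalizer ((S : Subgroup (Matrix.SpecialLinearGroup (Fin 2) F)) :
      Set (Matrix.SpecialLinearGroup (Fin 2) F))) =
      Nat.card (normalizer ((P : Subgroup (U1 F)) : Set (U1 F))) := by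
    rw [hS, ← map_equiv_normalizer_eq, card_map_of_injective e.injective]
  have hc : Nat.card S = Nat.card P := by
    rw [hS, card_map_of_injective e.injective]
  have hq : (Fintype.card F % 8 = 1 ∨ Fintype.card F % 8 = 7) ∨
      (Fintype.card F % 8 = 3 ∨ Fintype.card F % 8 = 5) := by
    have := Nat.odd_iff.1 hF; omega
  rcases hq with hq | hq
  · left
    have := h17 hq
    rw [this] at hN
    exact (eq_of_le_of_card_ge (le_normalizer (H := (P : Subgroup (U1 F))))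
      (hN.symm.trans hc).le).ge
  · right
    have h8 : Nat.card P = 8 := by rw [syl_card_P hF, syl_val hq]; norm_num
    have hPQ : (P : Subgroup (U1 F)) = Q F :=
      (eq_of_le_of_card_ge hQ (h8.le.trans syl_card_Q)).symm
    refine ⟨hPQ, ⟨P, hPQ⟩, fun n hn => ?_⟩
    have h24 : Nat.card (normalizer (Q F : Set (U1 F))) = 24 := by
      rw [← hPQ, ← hN, h35 hq, hc, h8]
    have hw : zpowers (uw : U1 F) ≤ normalizer (Q F : Set (U1 F)) := zpowers_le.2 uw_norm
    have hle : Q F ⊔ zpowers uw ≤ normalizer (Q F : Set (U1 F)) := sup_le le_normalizer hw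
    have d8 : 8 ∣ Nat.card (Q F ⊔ zpowers uw : Subgroup (U1 F)) := by
      have : Nat.card (Q F) = 8 := by rw [← hPQ]; exact h8
      rw [← this]; exact card_dvd_of_le le_sup_left
    have d3 : 3 ∣ Nat.card (Q F ⊔ zpowers uw : Subgroup (U1 F)) := by
      have : Nat.card (zpowers (uw : U1 F)) = 3 := by
        rw [Nat.card_zpowers]
        exact orderOf_eq_prime uw_cube uw_ne_one
      rw [← this]; exact card_dvd_of_le le_sup_right
    have d24 : 24 ∣ Nat.card (Q F ⊔ zpowers uw : Subgroup (U1 F)) :=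
      Nat.Coprime.mul_dvd_of_dvd_of_dvd (by norm_num : Nat.Coprime 8 3) d8 d3
    have heq := eq_of_le_of_card_ge hle (h24.le.trans (Nat.le_of_dvd Nat.card_pos d24))
    rw [← heq, ← SetLike.mem_coe, coe_mul_of_right_le_normalizer_left _ _ hw] at hn
    obtain ⟨q, hq, z, hz, rfl⟩ := hn
    obtain ⟨k, rfl⟩ := (mem_powers_iff_mem_zpowers (x := (uw : U1 F)) (y := z)).2 hz
    exact ⟨q, hq, k, rfl⟩

theorem exists_sylow [Fintype F] [NeZero (2 : F)] (hF : Odd (Fintype.card F)) (m : ℕ)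
    (P : Sylow 2 (U1 F)) (T : Sylow 2 (Equiv.Perm (Fin m))) :
    ∃ S : Sylow 2 (UG F (Fin m)), (S : Subgroup (UG F (Fin m))) = (wd F (Fin m)).W P T := by
  classical
  have h1 := Fintype.one_lt_card (α := F)
  obtain ⟨e⟩ := exists_iso (F := F) (ι := Fin m)
  refine H85.exists_sylow_eq ((wd F (Fin m)).isPGroup_W P.isPGroup' T.isPGroup') (le_of_eq ?_)
  rw [H85.WD.card_W, syl_card_P hF, H85.card_sylow_perm, Nat.card_congr e.toEquiv,
    S0245.result rfl, Nat.factorization_def _ Nat.prime_two, padicValNat.mul (by positivity)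
      (Finset.prod_ne_zero_iff.2 fun i _ => H85.pow_sub_one_ne_zero h1 (by omega)),
    H85.val2_eq_zero hF.pow, H85.val2_prod_even h1 hF, Fintype.card_fin, ← pow_mul, ← pow_add,
    zero_add, mul_comm]

theorem exists_T (k : ℕ) : ∃ T : Sylow 2 (Equiv.Perm (Fin (2 ^ k))),
    ∀ a b, ∃ τ ∈ (T : Subgroup (Equiv.Perm (Fin (2 ^ k)))), τ a = b := by
  have : NeZero (2 ^ k) := ⟨by positivity⟩
  let f : Multiplicative (Fin (2 ^ k)) →* Equiv.Perm (Fin (2 ^ k)) :=
    MonoidHom.mk' (fun x => Equiv.addLeft x.toAdd) fun x y => Equiv.ext fun z => by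
      simp [add_assoc]
  have hp : IsPGroup 2 (Multiplicative (Fin (2 ^ k))) :=
    IsPGroup.of_card (n := k) (by simp)
  obtain ⟨T, hT⟩ := (hp.of_surjective f.rangeRestrict f.rangeRestrict_surjective).exists_le_sylow
  exact ⟨T, fun a b => ⟨f (Multiplicative.ofAdd (b - a)), hT ⟨_, rfl⟩, by simp [f]⟩⟩

end Cfsg.Agent.PN
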